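import Cfsg.Agent.H965.XZ.IdxD

/-!
# S4816 (RIM), orthogonal groups: degree arithmetic and the choice of `J` (helper521)

`S` (or a cover of it) generated by a root group datum of type `B_m`, `|X_i| = q` for `i + 1 < m`, `|X_{m-1}| = q ^ s`:
`s = 1` for `Ω_{2m+1}(q)`, `s = 2` for `Ω⁻_{2m+2}(q)`; or of type `D_m`, `m = n + 2`, `|X_i| = q` : `Ω⁺_{2m}(q)`.

* `num_B`, `num_D` : the numbers;
* `arith_B` : `p` divides `|S : P_J| ∏_{i < m - 1} (q^(i+1) - 1)` for `J = {j | j + 1 ≠ m}` (`SL_m(q)`), except if the order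
  of `q` modulo `p` is `m`, odd: then `p` divides `|S : P_J|` for every `J` which misses a node `j`, `j + 1 < m`;
* `arith_odd`, `arith_minus` : the same with the order of the group as hypothesis;
* `arith_D` : the same for `J = {j | j + 1 ≠ n + 2}`; exception: the order of `q` is `m = n + 2`, odd: then `p` divides
  `|S : P_J|` for every `J` which misses a node `j < n`.
-/

set_option autoImplicit false
set_option linter.unusedSectionVars false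

namespace Cfsg.Agent.H521.RIM

/-! ### numbers -/

section Num

variable {q m p : ℕ}

theorem sub_one_dvd_of {a b : ℕ} (h : a ∣ b) (q : ℕ) : q ^ a - 1 ∣ q ^ b - 1 := by
  obtain ⟨c, rfl⟩ := h
  rw [pow_mul]
  exact Nat.sub_one_dvd_pow_sub_one (q ^ a) c

theorem pow_two_mul (hq : 1 ≤ q) (i : ℕ) : q ^ (2 * i) - 1 = (q ^ i - 1) * (q ^ i + 1) := by
  have h1 : 1 ≤ q ^ i := Nat.one_le_pow _ _ hq
  obtain ⟨x, hx⟩ := Nat.exists_eq_add_of_le h1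
  have h2 : q ^ (2 * i) = (q ^ i) ^ 2 := by rw [mul_comm, pow_mul]
  rw [h2, hx]
  have h3 : (1 + x) ^ 2 = x * (x + 2) + 1 := by ring
  rw [h3, Nat.add_sub_cancel, Nat.add_sub_cancel_left]
  ring

/-- the numbers, types `B_m` -/
theorem num_B (hp : p.Prime) (hq : 1 ≤ q) {s : ℕ} (hs : s = 1 ∨ s = 2) (hm : 3 ≤ m)
    (hd : (s = 2 ∧ p ∣ q ^ (m + 1) + 1) ∨ ∃ i, 1 ≤ i ∧ i ≤ m ∧ p ∣ q ^ (2 * i) - 1) :
    p ∣ (∏ i ∈ Finset.range m, (1 + q ^ i * q ^ s)) * ∏ i ∈ Finset.range (m - 1), (q ^ (i + 1) - 1) ∨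
      (Odd m ∧ p ∣ q ^ m - 1 ∧ ∀ i, 1 ≤ i → i < m → ¬ p ∣ q ^ i - 1) := by
  by_cases hA : ∃ j, 1 ≤ j ∧ j < m ∧ p ∣ q ^ j - 1
  · obtain ⟨j, hj1, hjm, hj⟩ := hA
    refine Or.inl (Dvd.dvd.mul_left (hj.trans ?_) _)
    obtain ⟨i, rfl⟩ : ∃ i, j = i + 1 := ⟨j - 1, by omega⟩
    exact Finset.dvd_prod_of_mem (fun i => q ^ (i + 1) - 1) (Finset.mem_range.2 (by omega))
  push Not at hA
  by_cases hB : ∃ j, s ≤ j ∧ j < m + s ∧ p ∣ q ^ j + 1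
  · obtain ⟨j, hj1, hjm, hj⟩ := hB
    refine Or.inl (Dvd.dvd.mul_right (hj.trans ?_) _)
    obtain ⟨i, rfl⟩ : ∃ i, j = i + s := ⟨j - s, by omega⟩
    have e : q ^ (i + s) + 1 = 1 + q ^ i * q ^ s := by rw [pow_add, add_comm]
    rw [e]
    exact Finset.dvd_prod_of_mem (fun i => 1 + q ^ i * q ^ s) (Finset.mem_range.2 (by omega))
  push Not at hB
  right
  have key : ∀ i, 1 ≤ i → i ≤ m → p ∣ q ^ (2 * i) - 1 → p ∣ q ^ i - 1 := by
    intro i hi him h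
    rw [pow_two_mul hq] at h
    rcases hp.dvd_mul.1 h with h | h
    · exact h
    · exfalso
      by_cases hsi : s ≤ i
      · exact hB i hsi (by omega) h
      · -- `i = 1`, `s = 2`
        have hi1 : i = 1 := by omega
        subst hi1
        refine hA 2 (by omega) (by omega) ?_
        have := pow_two_mul hq 1
        rw [mul_one] at this
        rw [this]
        exact Dvd.dvd.mul_left h _
  rcases hd with ⟨hs2, hd⟩ | ⟨i, hi1, him, hi⟩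
  · exact absurd hd (hB (m + 1) (by omega) (by omega))
  · have h1 := key i hi1 him hi
    have him' : i = m := by
      by_contra hne
      exact hA i hi1 (by omega) h1
    subst him'
    refine ⟨?_, h1, fun j hj hji => hA j hj hji⟩
    rw [← Nat.not_even_iff_odd]
    rintro ⟨k, hk⟩
    have hk2 : i = 2 * k := by omega
    have h3 := key k (by omega) (by omega) (by rwa [← hk2])
    exact hA k (by omega) (by omega) h3

/-- the numbers, type `D_m` -/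
theorem num_D (hp : p.Prime) (hq : 1 ≤ q) (hm : 2 ≤ m)
    (hd : p ∣ q ^ m - 1 ∨ ∃ i, 1 ≤ i ∧ i < m ∧ p ∣ q ^ (2 * i) - 1) :
    p ∣ (∏ i ∈ Finset.range (m - 1), (1 + q ^ (i + 1))) * ∏ i ∈ Finset.range (m - 1), (q ^ (i + 1) - 1) ∨
      (Odd m ∧ p ∣ q ^ m - 1 ∧ ∀ i, 1 ≤ i → i < m → ¬ p ∣ q ^ i - 1) := by
  by_cases hA : ∃ j, 1 ≤ j ∧ j < m ∧ p ∣ q ^ j - 1
  · obtain ⟨j, hj1, hjm, hj⟩ := hA
    refine Or.inl (Dvd.dvd.mul_left (hj.trans ?_) _)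
    obtain ⟨i, rfl⟩ : ∃ i, j = i + 1 := ⟨j - 1, by omega⟩
    exact Finset.dvd_prod_of_mem (fun i => q ^ (i + 1) - 1) (Finset.mem_range.2 (by omega))
  push Not at hA
  by_cases hB : ∃ j, 1 ≤ j ∧ j < m ∧ p ∣ q ^ j + 1
  · obtain ⟨j, hj1, hjm, hj⟩ := hB
    refine Or.inl (Dvd.dvd.mul_right (hj.trans ?_) _)
    obtain ⟨i, rfl⟩ : ∃ i, j = i + 1 := ⟨j - 1, by omega⟩
    rw [add_comm]
    exact Finset.dvd_prod_of_mem (fun i => 1 + q ^ (i + 1)) (Finset.mem_range.2 (by omega))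
  push Not at hB
  right
  have key : ∀ i, 1 ≤ i → i < m → ¬ p ∣ q ^ (2 * i) - 1 := by
    intro i hi him h
    rw [pow_two_mul hq] at h
    rcases hp.dvd_mul.1 h with h | h
    · exact hA i hi him h
    · exact hB i hi him h
  rcases hd with hd | ⟨i, hi1, him, hi⟩
  · refine ⟨?_, hd, fun j hj hji => hA j hj hji⟩
    rw [← Nat.not_even_iff_odd]
    rintro ⟨k, hk⟩
    have hk2 : m = 2 * k := by omega
    rw [hk2] at hd
    exact key k (by omega) (by omega) hd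
  · exact absurd hi (key i hi1 him)

end Num

open CoxeterSystem Cfsg.Agent.ChevalleyStructure.CoxeterGeom Cfsg.Agent.Tits.Roots Cfsg.Agent.Tits.Core
  Cfsg.Agent.Tits.RootComb Cfsg.Agent.Tits.Exchange Cfsg.Agent.Nodes.Comb Cfsg.Agent.Nodes.Reps
  Cfsg.Agent.Nodes.BNOf Cfsg.Agent.Nodes.StabComb Cfsg.Agent.Nodes.Bruhat Cfsg.Agent.Nodes.OppDec
  Cfsg.Agent.Nodes.LeviDec Cfsg.Agent.Nodes.NormalForm Cfsg.Agent.ChevalleyStructure.WeylAbstract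
  Cfsg.Agent.H35.Poin Cfsg.Agent.H965.XZ

theorem gs_mul {q : ℕ} (hq : 1 ≤ q) (n : ℕ) : gs q n * (q - 1) = q ^ n - 1 := by
  unfold gs
  obtain ⟨x, rfl⟩ := Nat.exists_eq_add_of_le hq
  have h2 : (∑ i ∈ Finset.range n, (1 + x) ^ i) * x + 1 = (1 + x) ^ n := by
    induction n with
    | zero => simp
    | succ n ih =>
      rw [Finset.sum_range_succ, add_mul, add_right_comm, ih, pow_succ]
      ring
  rw [Nat.add_sub_cancel_left]
  omega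

theorem not_dvd_gs {q m p : ℕ} (hq : 1 ≤ q) (h : ∀ i, 1 ≤ i → i < m → ¬ p ∣ q ^ i - 1) {i : ℕ} (hi : 1 ≤ i) (him : i < m) :
    ¬ p ∣ gs q i := fun h1 => h i hi him (by
  rw [← gs_mul hq i]
  exact Dvd.dvd.mul_right h1 _)

theorem dvd_gs {q m p : ℕ} (hp : p.Prime) (hq : 1 ≤ q) (hm : 2 ≤ m) (h1 : p ∣ q ^ m - 1)
    (h : ∀ i, 1 ≤ i → i < m → ¬ p ∣ q ^ i - 1) : p ∣ gs q m := by
  rw [← gs_mul hq m] at h1
  rcases hp.dvd_mul.1 h1 with h2 | h2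
  · exact h2
  · exfalso
    refine h 1 le_rfl (by omega) ?_
    rwa [pow_one]

/-! ### type `B_m` -/

section B

variable {m : ℕ} {W Y : Type*} [Group W] [Group Y] {cs : CoxeterSystem (CoxeterMatrix.B m) W}
  {A : Fin m → Fin m → ℤ} {h : IsCartan (CoxeterMatrix.B m) A} {r : ℕ} {T : Subgroup Y} {n : Fin m → Y}
  {X : (Fin m → ℤ) → Subgroup Y} (R : RGD cs h r T n X)

include R

/-- the index of the parabolic subgroup of type `A_{m-1}` -/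
theorem index_A [Finite W] [Finite Y] (hG : GG cs h T X = ⊤) {y z : ℕ}
    (hy : ∀ i : Fin m, (i : ℕ) + 1 < m → Nat.card (X (sr i)) = y)
    (hz : ∀ i : Fin m, (i : ℕ) + 1 = m → Nat.card (X (sr i)) = z) (hm : 1 ≤ m) :
    (PJ cs h T X {j | (j : ℕ) + 1 ≠ m}).index = ∏ i ∈ Finset.range m, (1 + y ^ i * z) := by
  have h1 := index_B R hG hy hz hm le_rfl
  rw [Nat.sub_self] at h1
  simp only [Nat.zero_add] at h1
  rw [Finset.prod_mul_distrib, mul_comm] at h1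
  exact Nat.eq_of_mul_eq_mul_left (Finset.prod_pos fun i _ => gs_pos y i) h1

/-- the exceptional case -/
theorem dvd_index_exc [Finite W] [Finite Y] (hG : GG cs h T X = ⊤) {q z : ℕ} (hq : 1 ≤ q)
    (hy : ∀ i : Fin m, (i : ℕ) + 1 < m → Nat.card (X (sr i)) = q)
    (hz : ∀ i : Fin m, (i : ℕ) + 1 = m → Nat.card (X (sr i)) = z) {p : ℕ} (hp : p.Prime) (h1 : p ∣ q ^ m - 1)
    (h2 : ∀ i, 1 ≤ i → i < m → ¬ p ∣ q ^ i - 1) {J : Set (Fin m)} {j : Fin m} (hj : (j : ℕ) + 1 < m) (hjJ : j ∉ J) :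
    p ∣ (PJ cs h T X J).index := by
  refine dvd_index_mono R (J' := {i | (i : ℕ) + 1 ≠ (j : ℕ) + 1}) (fun i hi e => hjJ ?_) ?_
  · have e1 : i = j := Fin.ext (Nat.succ_injective e)
    rwa [← e1]
  · have h3 := index_B R hG hy hz (a := (j : ℕ) + 1) (by omega) (by omega)
    have h4 : p ∣ ∏ i ∈ Finset.range ((j : ℕ) + 1),
        gs q (m - ((j : ℕ) + 1) + i + 1) * (1 + q ^ (m - ((j : ℕ) + 1) + i) * z) := by
      refine Dvd.dvd.trans ?_ (Finset.dvd_prod_of_mem _ (Finset.mem_range.2 (Nat.lt_succ_self (j : ℕ))))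
      refine Dvd.dvd.mul_right ?_ _
      have e : m - ((j : ℕ) + 1) + (j : ℕ) + 1 = m := by omega
      rw [e]
      exact dvd_gs hp hq (by omega) h1 h2
    rw [← h3] at h4
    rcases hp.dvd_mul.1 h4 with h5 | h5
    · exact h5
    · exfalso
      obtain ⟨i, hi, hpi⟩ := (hp.prime.dvd_finsetProd_iff _).1 h5
      exact not_dvd_gs hq h2 (by omega) (by have := Finset.mem_range.1 hi; omega) hpi

/-- **degree arithmetic in type `B_m`** -/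
theorem arith_B [Finite W] [Finite Y] (hG : GG cs h T X = ⊤) {q s : ℕ} (hq : 1 ≤ q) (hs : s = 1 ∨ s = 2) (hm : 3 ≤ m)
    (hy : ∀ i : Fin m, (i : ℕ) + 1 < m → Nat.card (X (sr i)) = q)
    (hz : ∀ i : Fin m, (i : ℕ) + 1 = m → Nat.card (X (sr i)) = q ^ s) {p : ℕ} (hp : p.Prime)
    (hd : (s = 2 ∧ p ∣ q ^ (m + 1) + 1) ∨ ∃ i, 1 ≤ i ∧ i ≤ m ∧ p ∣ q ^ (2 * i) - 1) :
    p ∣ (PJ cs h T X {j | (j : ℕ) + 1 ≠ m}).index * ∏ i ∈ Finset.range (m - 1), (q ^ (i + 1) - 1) ∨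
      (Odd m ∧ p ∣ q ^ m - 1 ∧ (∀ i, 1 ≤ i → i < m → ¬ p ∣ q ^ i - 1) ∧
        ∀ (J : Set (Fin m)) (j : Fin m), (j : ℕ) + 1 < m → j ∉ J → p ∣ (PJ cs h T X J).index) := by
  rw [index_A R hG hy hz (by omega)]
  rcases num_B hp hq hs hm hd with h1 | ⟨h1, h2, h3⟩
  · exact Or.inl h1
  · exact Or.inr ⟨h1, h2, h3, fun J j hj hjJ => dvd_index_exc R hG hq hy hz hp h2 h3 hj hjJ⟩

/-- **`Ω_{2m+1}(q)`** -/
theorem arith_odd [Finite W] [Finite Y] (hG : GG cs h T X = ⊤) {q : ℕ} (hq : 1 ≤ q) (hm : 3 ≤ m)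
    (hy : ∀ i : Fin m, Nat.card (X (sr i)) = q) {p : ℕ} (hp : p.Prime)
    (hd : p ∣ ∏ i ∈ Finset.range m, (q ^ (2 * (i + 1)) - 1)) :
    p ∣ (PJ cs h T X {j | (j : ℕ) + 1 ≠ m}).index * ∏ i ∈ Finset.range (m - 1), (q ^ (i + 1) - 1) ∨
      (Odd m ∧ p ∣ q ^ m - 1 ∧ (∀ i, 1 ≤ i → i < m → ¬ p ∣ q ^ i - 1) ∧
        ∀ (J : Set (Fin m)) (j : Fin m), (j : ℕ) + 1 < m → j ∉ J → p ∣ (PJ cs h T X J).index) := by
  refine arith_B R hG hq (Or.inl rfl) hm (fun i _ => hy i) (fun i _ => by rw [pow_one]; exact hy i) hp (Or.inr ?_)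
  obtain ⟨i, hi, hpi⟩ := (hp.prime.dvd_finsetProd_iff _).1 hd
  exact ⟨i + 1, by omega, by have := Finset.mem_range.1 hi; omega, hpi⟩

/-- **`Ω⁻_{2m+2}(q)`** -/
theorem arith_minus [Finite W] [Finite Y] (hG : GG cs h T X = ⊤) {q : ℕ} (hq : 1 ≤ q) (hm : 3 ≤ m)
    (hy : ∀ i : Fin m, (i : ℕ) + 1 < m → Nat.card (X (sr i)) = q)
    (hz : ∀ i : Fin m, (i : ℕ) + 1 = m → Nat.card (X (sr i)) = q ^ 2) {p : ℕ} (hp : p.Prime)
    (hd : p ∣ (q ^ (m + 1) + 1) * ∏ i ∈ Finset.range m, (q ^ (2 * (i + 1)) - 1)) :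
    p ∣ (PJ cs h T X {j | (j : ℕ) + 1 ≠ m}).index * ∏ i ∈ Finset.range (m - 1), (q ^ (i + 1) - 1) ∨
      (Odd m ∧ p ∣ q ^ m - 1 ∧ (∀ i, 1 ≤ i → i < m → ¬ p ∣ q ^ i - 1) ∧
        ∀ (J : Set (Fin m)) (j : Fin m), (j : ℕ) + 1 < m → j ∉ J → p ∣ (PJ cs h T X J).index) := by
  refine arith_B R hG hq (Or.inr rfl) hm hy hz hp ?_
  rcases hp.dvd_mul.1 hd with h1 | h1
  · exact Or.inl ⟨rfl, h1⟩
  · obtain ⟨i, hi, hpi⟩ := (hp.prime.dvd_finsetProd_iff _).1 h1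
    exact Or.inr ⟨i + 1, by omega, by have := Finset.mem_range.1 hi; omega, hpi⟩

end B

/-! ### type `D_m`, `m = n + 2` -/

section D

variable {n : ℕ} {W Y : Type*} [Group W] [Group Y] {cs : CoxeterSystem (Cfsg.Agent.Nodes.TypeD.M n) W}
  {A : Fin (n + 2) → Fin (n + 2) → ℤ} {h : IsCartan (Cfsg.Agent.Nodes.TypeD.M n) A} {r : ℕ} {T : Subgroup Y}
  {n' : Fin (n + 2) → Y} {X : (Fin (n + 2) → ℤ) → Subgroup Y} (R : RGD cs h r T n' X)

include R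

/-- the exceptional case -/
theorem dvd_index_excD [Finite W] [Finite Y] (hG : GG cs h T X = ⊤) {q : ℕ} (hq : 1 ≤ q)
    (hy : ∀ i : Fin (n + 2), Nat.card (X (sr i)) = q) {p : ℕ} (hp : p.Prime) (h1 : p ∣ q ^ (n + 2) - 1)
    (h2 : ∀ i, 1 ≤ i → i < n + 2 → ¬ p ∣ q ^ i - 1) {J : Set (Fin (n + 2))} {j : Fin (n + 2)} (hj : (j : ℕ) < n)
    (hjJ : j ∉ J) : p ∣ (PJ cs h T X J).index := by
  refine dvd_index_monoD R (J' := {i | (i : ℕ) + 1 ≠ (j : ℕ) + 1}) (fun i hi e => hjJ ?_) ?_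
  · have e1 : i = j := Fin.ext (Nat.succ_injective e)
    rwa [← e1]
  · have h3 := index_D R hG hy (a := (j : ℕ) + 1) (by omega) (by omega)
    have h4 : p ∣ ∏ i ∈ Finset.range ((j : ℕ) + 1),
        gs q (n + 2 - ((j : ℕ) + 1) + i + 1) * (1 + q ^ (n + 2 - ((j : ℕ) + 1) + i)) := by
      refine Dvd.dvd.trans ?_ (Finset.dvd_prod_of_mem _ (Finset.mem_range.2 (Nat.lt_succ_self (j : ℕ))))
      refine Dvd.dvd.mul_right ?_ _
      have e : n + 2 - ((j : ℕ) + 1) + (j : ℕ) + 1 = n + 2 := by omega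
      rw [e]
      exact dvd_gs hp hq (by omega) h1 h2
    rw [← h3] at h4
    rcases hp.dvd_mul.1 h4 with h5 | h5
    · exact h5
    · exfalso
      obtain ⟨i, hi, hpi⟩ := (hp.prime.dvd_finsetProd_iff _).1 h5
      exact not_dvd_gs hq h2 (by omega) (by have := Finset.mem_range.1 hi; omega) hpi

/-- **`Ω⁺_{2m}(q)`**, `m = n + 2` -/
theorem arith_D [Finite W] [Finite Y] (hG : GG cs h T X = ⊤) {q : ℕ} (hq : 1 ≤ q)
    (hy : ∀ i : Fin (n + 2), Nat.card (X (sr i)) = q) {p : ℕ} (hp : p.Prime)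
    (hd : p ∣ (q ^ (n + 2) - 1) * ∏ i ∈ Finset.range (n + 1), (q ^ (2 * (i + 1)) - 1)) :
    p ∣ (PJ cs h T X {j | (j : ℕ) + 1 ≠ n + 2}).index * ∏ i ∈ Finset.range (n + 1), (q ^ (i + 1) - 1) ∨
      (Odd (n + 2) ∧ p ∣ q ^ (n + 2) - 1 ∧ (∀ i, 1 ≤ i → i < n + 2 → ¬ p ∣ q ^ i - 1) ∧
        ∀ (J : Set (Fin (n + 2))) (j : Fin (n + 2)), (j : ℕ) < n → j ∉ J → p ∣ (PJ cs h T X J).index) := by
  rw [index_spin R hG hy]
  have hd' : p ∣ q ^ (n + 2) - 1 ∨ ∃ i, 1 ≤ i ∧ i < n + 2 ∧ p ∣ q ^ (2 * i) - 1 := by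
    rcases hp.dvd_mul.1 hd with h1 | h1
    · exact Or.inl h1
    · obtain ⟨i, hi, hpi⟩ := (hp.prime.dvd_finsetProd_iff _).1 h1
      exact Or.inr ⟨i + 1, by omega, by have := Finset.mem_range.1 hi; omega, hpi⟩
  rcases num_D hp hq (by omega) hd' with h1 | ⟨h1, h2, h3⟩
  · exact Or.inl h1
  · exact Or.inr ⟨h1, h2, h3, fun J j hj hjJ => dvd_index_excD R hG hq hy hp h2 h3 hj hjJ⟩

end D

end Cfsg.Agent.H521.RIM
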