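import Cfsg.Agent.H521.RIM.ThreeComb
import Cfsg.Agent.H521.RIM.TwoNodes
import Cfsg.Agent.H521.RIM.Arith
import Cfsg.Agent.H568.RIM.RankOne
import Cfsg.Agent.H908.RIM.Lift
import Cfsg.Agent.H948.Ppd.PmLevi
import Cfsg.Agent.CharactersDeep.ElemExt
import Cfsg.Agent.Characters.ArtinInduction
import Cfsg.Agent.H643.RIM.Levi
import Cfsg.Agent.H665.RIM.Defs
import Cfsg.Agent.S0242

/-!
# Type `B_3`, `p ∣ q ^ 2 + q + 1` (S4816, helper521)

`J = {0, 2}`, `β = e_1 + e_2` : the torus `T_β` of `⟨X_β, X_{-β}⟩` is central in `L_J`, inverted by the only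
`w ∉ W_J` with `w J = J`.
-/

set_option autoImplicit false
set_option linter.unusedSectionVars false

open scoped ComplexConjugate MatrixGroups commutatorElement
open Cfsg

namespace Cfsg.Agent.H521.RIM.Three

open CoxeterSystem Cfsg.Agent.ChevalleyStructure.CoxeterGeom Cfsg.Agent.Tits.Roots Cfsg.Agent.Tits.Core
  Cfsg.Agent.Tits.Exchange Cfsg.Agent.Nodes.Reps Cfsg.Agent.Nodes.BNOf Cfsg.Agent.Nodes.StabComb
  Cfsg.Agent.Nodes.Bruhat Cfsg.Agent.Nodes.OppDec Cfsg.Agent.Nodes.LeviDec Cfsg.Agent.H53.HC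
  Cfsg.Agent.Nodes.TypeC
open Cfsg.Agent.H911.SLTwo Cfsg.Agent.H948.Ppd Cfsg.Agent.Characters Cfsg.Agent.OddOrderCharacters.IndRes

section act

variable {I W Y : Type*} [Fintype I] [DecidableEq I] [Group W] [Group Y] {M : CoxeterMatrix I}
  {cs : CoxeterSystem M W} {A : I → I → ℤ} {h : IsCartan M A} {p : ℕ} {T : Subgroup Y} {n : I → Y}
  {X : (I → ℤ) → Subgroup Y} (R : RGD cs h p T n X)

include R

/-- commuting root groups, conjugated -/
theorem cc_act {x y : I → ℤ} (hx : IsRoot cs h x) (hy : IsRoot cs h y)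
    (hc : ∀ a ∈ X x, ∀ b ∈ X y, a * b = b * a) (w : W) :
    ∀ a ∈ X (rep cs h w x), ∀ b ∈ X (rep cs h w y), a * b = b * a := by
  obtain ⟨g, hg⟩ := exists_rp cs R.nsys w
  intro a ha b hb
  rw [← R.conj_rp hg hx, mem_cj] at ha
  rw [← R.conj_rp hg hy, mem_cj] at hb
  have h1 := hc _ ha _ hb
  have h2 : g⁻¹ * (a * b) * g = g⁻¹ * (b * a) * g := by
    calc g⁻¹ * (a * b) * g = g⁻¹ * a * g * (g⁻¹ * b * g) := by group
      _ = g⁻¹ * b * g * (g⁻¹ * a * g) := h1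
      _ = g⁻¹ * (b * a) * g := by group
  exact mul_left_cancel (mul_right_cancel h2)

end act

section three

open Cfsg.Agent.H568.RIM
open Cfsg.Agent.H622.Levi hiding MJ
open Cfsg.Agent.LieRecognition.BNCox (cA cA_apply)
open Cfsg.Agent.LieRecognition.CoxClass (mA)

theorem card_SL2 {F : Type*} [Field F] [Finite F] : Nat.card (SL(2, F)) = Nat.card F * (Nat.card F ^ 2 - 1) := by
  have : Fintype F := Fintype.ofFinite F
  have h1 := Cfsg.Agent.S0242.result (F := F) rfl 2 (by norm_num)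
  have hq : 2 ≤ Fintype.card F := Fintype.one_lt_card
  rw [Fin.prod_univ_two] at h1
  have h3 : Fintype.card F ^ 2 - Fintype.card F ^ 1 = (Fintype.card F - 1) * Fintype.card F := by
    rw [Nat.sub_mul, one_mul, pow_one, pow_two]
  simp only [Fin.val_zero, Fin.val_one, pow_zero] at h1
  rw [h3] at h1
  have h4 : (Fintype.card F - 1) * Nat.card (SL(2, F)) =
      (Fintype.card F - 1) * (Fintype.card F * (Fintype.card F ^ 2 - 1)) := by rw [h1]; ring
  rw [Nat.card_eq_fintype_card (α := F)]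
  exact Nat.eq_of_mul_eq_mul_left (by omega) h4

theorem orth02 : Orth (A 3) ({0} : Set (Fin 3)) {2} := by
  intro i hi j hj
  rw [Set.mem_singleton_iff.1 hi, Set.mem_singleton_iff.1 hj, A3]
  refine ⟨by decide, rfl, rfl⟩

theorem mem_J (i : Fin 3) : i ∈ ({0} ∪ {2} : Set (Fin 3)) ↔ i ≠ 1 := by
  fin_cases i <;> simp

/-- the chain `0, 1` -/
def k2 : Fin 2 ↪ Fin 3 := ⟨![0, 1], by decide⟩

theorem k2_M (i j : Fin 2) : CoxeterMatrix.B 3 (k2 i) (k2 j) = cA 2 i j := by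
  fin_cases i <;> fin_cases j <;> simp [k2, CoxeterMatrix.B, cA_apply, mA]

variable {W Y : Type*} [Group W] [Group Y] {cs : CoxeterSystem (CoxeterMatrix.B 3) W} {r : ℕ} {T : Subgroup Y}
  {n : Fin 3 → Y} {X : (Fin 3 → ℤ) → Subgroup Y} (R : RGD cs (isCartan 3) r T n X)

include R

theorem exists_tau [Finite W] {E : Type*} [Field E] {σ : SL(2, E) →* Y} (N : Nd T X (0 : Fin 3) σ) :
    ∃ (τ : SL(2, E) →* Y) (g₁ : Y), (∀ x, τ x = g₁ * σ x * g₁⁻¹) ∧ (∀ t, τ (U t) ∈ X beta) ∧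
      (∀ t, τ (Lo t) ∈ X (-beta)) ∧ (∀ s, τ (hh s) ∈ T) ∧ Rp cs R.nsys (sb cs) (τ ww) := by
  obtain ⟨g₁, hg⟩ := exists_rp cs R.nsys (w1 cs)
  refine ⟨(MulAut.conj g₁).toMonoidHom.comp σ, g₁, fun x => rfl, fun t => ?_, fun t => ?_, fun s => ?_, ?_⟩
  · have h1 : cj g₁ (X (sr 0)) = X beta := by rw [R.conj_rp hg (isRoot_sr cs _ 0), rep_w1_sr0]
    rw [← h1]
    exact conj_mem_cj.2 ((N.up _).2 ⟨t, rfl⟩)
  · have h1 : cj g₁ (X (-sr 0)) = X (-beta) := by
      rw [R.conj_rp hg (isRoot_sr cs _ 0).neg, map_neg, rep_w1_sr0]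
    rw [← h1]
    exact conj_mem_cj.2 ((N.lo _).2 ⟨t, rfl⟩)
  · exact (Subgroup.mem_normalizer_iff.1 hg.mem_normalizer _).1 (N.tor s)
  · exact (hg.mul (N.rp_ww R)).mul hg.inv

/-- `T_β` is central in `L_J` -/
theorem tau_comm [Finite W] {E : Type*} [Field E] {τ : SL(2, E) →* Y} (h1 : ∀ t, τ (U t) ∈ X beta)
    (h2 : ∀ t, τ (Lo t) ∈ X (-beta)) (h3 : ∀ s, τ (hh s) ∈ T) (hT : ∀ s ∈ T, ∀ t ∈ T, s * t = t * s)
    (hcm : ∀ x ∈ X beta, ∀ y ∈ X (sr 0), x * y = y * x) (s : Eˣ) :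
    ∀ g ∈ LJ cs (isCartan 3) T X ({0} ∪ {2}), τ (hh s) * g = g * τ (hh s) := by
  have hb := isRoot_beta cs
  have hr0 := isRoot_sr cs (isCartan 3) 0
  have hr2 := isRoot_sr cs (isCartan 3) 2
  have c1 : ∀ a ∈ X beta, ∀ b ∈ X (sr 0), a * b = b * a := hcm
  have c2 : ∀ a ∈ X beta, ∀ b ∈ X (-sr 0), a * b = b * a := by
    have h := cc_act R hb hr0 c1 (cs.simple 0)
    rwa [rep_s0_beta, rep_simple_sr] at h
  have c3 : ∀ a ∈ X (-beta), ∀ b ∈ X (sr 0), a * b = b * a := by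
    have h := cc_act R hb hr0 c1 (sb cs)
    rwa [rep_sb_beta, rep_sb_sr0] at h
  have c4 : ∀ a ∈ X (-beta), ∀ b ∈ X (-sr 0), a * b = b * a := by
    have h := cc_act R hb hr0.neg c2 (sb cs)
    rwa [rep_sb_beta, map_neg, rep_sb_sr0] at h
  have d1 : ∀ a ∈ X beta, ∀ b ∈ X (sr 2), a * b = b * a := by
    intro a ha b hb'
    have h := R.comm beta (sr 2) hb hr2 (fun e => by
      have := congrFun e 0
      rw [sr_two] at this
      exact one_ne_zero this) (fun e => by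
      have := congrFun e 0
      rw [sr_two] at this
      simp [beta] at this) a ha b hb'
    have h4 : btw cs (isCartan 3) X beta (sr 2) = ⊥ := by
      unfold Cfsg.Agent.Nodes.Reps.btw
      rw [iSup_eq_bot]
      rintro ⟨z, hz⟩
      exact (btwn_beta cs z hz).elim
    rw [h4, Subgroup.mem_bot] at h
    exact commutatorElement_eq_one_iff_mul_comm.1 h
  have d2 : ∀ a ∈ X beta, ∀ b ∈ X (-sr 2), a * b = b * a := by
    have h := cc_act R hb hr2 d1 (cs.simple 2)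
    rwa [rep_s2_beta, rep_simple_sr] at h
  have d3 : ∀ a ∈ X (-beta), ∀ b ∈ X (sr 2), a * b = b * a := by
    have h := cc_act R hb hr2 d1 (sb cs)
    rwa [rep_sb_beta, rep_sb_sr2] at h
  have d4 : ∀ a ∈ X (-beta), ∀ b ∈ X (-sr 2), a * b = b * a := by
    have h := cc_act R hb hr2.neg d2 (sb cs)
    rwa [rep_sb_beta, map_neg, rep_sb_sr2] at h
  have key : ∀ x : Fin 3 → ℤ, (∀ a ∈ X beta, ∀ b ∈ X x, a * b = b * a) → (∀ a ∈ X (-beta), ∀ b ∈ X x, a * b = b * a) →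
      X x ≤ Subgroup.centralizer {τ (hh s)} := by
    intro x e1 e2 y hy
    rw [Subgroup.mem_centralizer_singleton_iff]
    have h4 : Subgroup.closure (Set.range (U (K := E)) ∪ Set.range (Lo (K := E))) ≤
        (Subgroup.centralizer {y}).comap τ := by
      rw [Subgroup.closure_le]
      rintro _ (⟨a, rfl⟩ | ⟨a, rfl⟩)
      · exact Subgroup.mem_centralizer_singleton_iff.2 (e1 _ (h1 a) y hy)
      · exact Subgroup.mem_centralizer_singleton_iff.2 (e2 _ (h2 a) y hy)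
    exact (Subgroup.mem_centralizer_singleton_iff.1 (h4 (mem_closure_SL (hh s)))).symm
  have hle : LJ cs (isCartan 3) T X ({0} ∪ {2}) ≤ Subgroup.centralizer {τ (hh s)} := by
    rw [LJ_eq, orth02.MJ_union, MJ_single, MJ_single]
    refine sup_le (fun t ht => ?_) (sup_le (sup_le (key _ c1 c3) (key _ c2 c4)) (sup_le (key _ d1 d3) (key _ d2 d4)))
    rw [Subgroup.mem_centralizer_singleton_iff]
    exact hT _ ht _ (h3 s)
  intro g hg
  exact (Subgroup.mem_centralizer_singleton_iff.1 (hle hg)).symm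

/-- `SL_2(q)` is faithful -/
theorem sigma_inj [Finite W] [Finite Y] {E : Type*} [Field E] [Finite E] {σ : SL(2, E) →* Y}
    (N : Nd T X (0 : Fin 3) σ) : Function.Injective σ := by
  obtain ⟨F, _, _, φ, C⟩ := exists_co R (m := 2) le_rfl k2 k2_M
  let k : Fin 1 ↪ Fin 3 := ⟨fun _ => 0, fun a b _ => Subsingleton.elim a b⟩
  have hk : Set.range k = {0} := by
    ext x
    constructor
    · rintro ⟨_, rfl⟩; rfl
    · rintro rfl; exact ⟨0, rfl⟩
  have C' : Co X k F (φ.comp emb) := C.one k rfl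
  have hkM : ∀ a b, CoxeterMatrix.B 3 (k a) (k b) = cA 1 a b := by
    intro a b
    rw [Subsingleton.elim a b, CoxeterMatrix.diagonal, CoxeterMatrix.diagonal]
  have h1 : (φ.comp emb).range = MJ cs (isCartan 3) X {0} := by
    have := C'.range (cs := cs) (h := isCartan 3) hkM one_pos
    rwa [hk] at this
  have h2 : Function.Injective (φ.comp emb) := by
    rw [injective_iff_map_eq_one]
    intro g hg
    exact emb_mem_center (C.ker hg)
  have h3 : Nat.card (MJ cs (isCartan 3) X {0}) = Nat.card (SL(2, F)) := by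
    rw [← h1]
    exact (Nat.card_congr (MonoidHom.ofInjective h2).toEquiv).symm
  have h4 : Nat.card (X (sr 0)) = Nat.card F := C'.card 0
  have h5 : Nat.card (X (sr 0)) = Nat.card E := by
    have e : (X (sr 0) : Set Y) = Set.range fun t => σ (U t) := by
      ext y
      exact N.up y
    have h6 : Nat.card (X (sr 0)) = Nat.card (Set.range fun t => σ (U t)) := by
      rw [← e]
      rfl
    rw [h6]
    exact Nat.card_range_of_injective fun a b hab => N.U_inj R hab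
  have h6 : σ.range = MJ cs (isCartan 3) X {0} := by
    rw [N.range_eq R, MJ_single]
  have h7 : Nat.card σ.range = Nat.card (SL(2, E)) := by
    rw [h6, h3, card_SL2, card_SL2, ← h4, h5]
  have h8 : Function.Bijective σ.rangeRestrict := by
    rw [Nat.bijective_iff_surjective_and_card]
    exact ⟨σ.rangeRestrict_surjective, h7.symm⟩
  intro a b hab
  exact h8.1 (Subtype.ext hab)

/-- the centre of `M_0` lies in `T` -/
theorem cen_le [Finite W] {E : Type*} [Field E] {σ : SL(2, E) →* Y} (N : Nd T X (0 : Fin 3) σ) {z : Y}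
    (hz : z ∈ MJ cs (isCartan 3) X {0}) (hc : ∀ y ∈ MJ cs (isCartan 3) X ({0} : Set (Fin 3)), z * y = y * z) : z ∈ T := by
  have hM := MJ_single (cs := cs) (h := isCartan 3) (X := X) 0
  rw [hM, ← N.range_eq R] at hz
  obtain ⟨x, rfl⟩ := hz
  have hcj : ∀ H : Subgroup Y, H ≤ MJ cs (isCartan 3) X {0} → cj (σ x) H = H := by
    intro H hH
    ext y
    rw [mem_cj]
    constructor
    · intro hy
      have h1 := hc _ (hH hy)
      have h2 : y = (σ x)⁻¹ * y * σ x := by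
        have h3 : σ x * ((σ x)⁻¹ * y * σ x) = y * σ x := by group
        rw [h3] at h1
        exact mul_right_cancel h1
      rw [h2]
      exact hy
    · intro hy
      have h1 := hc _ (hH hy)
      have h2 : (σ x)⁻¹ * y * σ x = y := by
        rw [mul_assoc, ← h1]
        group
      rw [h2]
      exact hy
  have h3 := N.lower_zero R (hcj _ (by rw [hM]; exact le_sup_left))
  have h4 := N.upper_zero R (hcj _ (by rw [hM]; exact le_sup_right))
  have hdet := det_eq x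
  rw [h3, h4, mul_zero, sub_zero] at hdet
  have hx : x = hh ⟨x.1 0 0, x.1 1 1, hdet, by rw [mul_comm]; exact hdet⟩ := by
    apply ext' <;> simp only [hh00, hh01, hh10, hh11]
    · rw [h4]
    · rw [h3]
    · rfl
  rw [hx]
  exact N.tor _

omit R in
/-- a linear character of `T` -/
theorem exists_kappa [Finite Y] {Z : Subgroup Y} (hZT : Z ≤ T) (hT : ∀ s ∈ T, ∀ t ∈ T, s * t = t * s) (l : Z →* ℂˣ)
    {E : Type*} [Field E] [Finite E] {τ : SL(2, E) →* Y} (hτ : ∀ s, τ (hh s) ∈ T) (hinj : ∀ s : Eˣ, τ (hh s) ∈ Z → s = 1)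
    (hE : 3 < Nat.card E) :
    ∃ (κ : T →* ℂˣ) (s : Eˣ), (∀ z (hz : z ∈ Z), κ ⟨z, hZT hz⟩ = l ⟨z, hz⟩) ∧ κ ⟨τ (hh s), hτ s⟩ ^ 2 ≠ 1 := by
  have : Fintype E := Fintype.ofFinite E
  obtain ⟨s, hs⟩ := IsCyclic.exists_generator (α := Eˣ)
  have hord : orderOf s = Nat.card E - 1 := by
    rw [orderOf_eq_card_of_forall_mem_zpowers hs, Nat.card_units]
  have hn0 : Nat.card E - 1 ≠ 0 := by omega
  have hprim := Complex.isPrimitiveRoot_exp (Nat.card E - 1) hn0
  obtain ⟨μ, hμ⟩ := Cfsg.Agent.Characters.ArtinInduction.exists_hom_gen hs hn0 hord hprim.pow_eq_one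
  have hμs : (μ s : ℂ) ^ 2 ≠ 1 := by
    have h1 := hμ 1
    rw [pow_one, pow_one] at h1
    rw [h1]
    exact hprim.pow_ne_one_of_pos_of_lt (by norm_num) (by omega)
  let j : Z × Eˣ →* T :=
    { toFun := fun x => ⟨x.1 * τ (hh x.2), mul_mem (hZT x.1.2) (hτ x.2)⟩
      map_one' := by
        apply Subtype.ext
        simp [hh_one]
      map_mul' := by
        rintro ⟨a, b⟩ ⟨c, d⟩
        apply Subtype.ext
        change (a : Y) * c * τ (hh (b * d)) = a * τ (hh b) * (c * τ (hh d))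
        rw [← hh_mul, map_mul]
        have h1 := hT _ (hτ b) _ (hZT c.2)
        calc (a : Y) * c * (τ (hh b) * τ (hh d)) = a * (c * τ (hh b)) * τ (hh d) := by group
          _ = a * (τ (hh b) * c) * τ (hh d) := by rw [h1]
          _ = a * τ (hh b) * (c * τ (hh d)) := by group }
  have hj : Function.Injective j := by
    rw [injective_iff_map_eq_one]
    rintro ⟨a, b⟩ hab
    have h1 : (a : Y) * τ (hh b) = 1 := congrArg Subtype.val hab
    have h2 : τ (hh b) = (a : Y)⁻¹ := (inv_eq_of_mul_eq_one_right h1).symm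
    have h3 : b = 1 := hinj b (by rw [h2]; exact inv_mem a.2)
    rw [h3, hh_one, map_one, mul_one] at h1
    exact Prod.ext (Subtype.ext h1) h3
  let β : Z × Eˣ →* ℂˣ := (l.comp (MonoidHom.fst Z Eˣ)) * (μ.comp (MonoidHom.snd Z Eˣ))
  obtain ⟨κ, hκ⟩ := Cfsg.Agent.CharactersDeep.ElemExt.exists_ext_of_injective
    (fun a b : T => Subtype.ext (hT a a.2 b b.2)) j hj β
  refine ⟨κ, s, fun z hz => ?_, ?_⟩
  · have h1 := hκ (⟨z, hz⟩, 1)
    have e1 : j (⟨z, hz⟩, 1) = ⟨z, hZT hz⟩ := by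
      apply Subtype.ext
      change z * τ (hh 1) = z
      rw [hh_one, map_one, mul_one]
    have e2 : β (⟨z, hz⟩, 1) = l ⟨z, hz⟩ := by
      change l ⟨z, hz⟩ * μ 1 = _
      rw [map_one, mul_one]
    rw [e1, e2] at h1
    exact h1
  · have h1 := hκ (1, s)
    have e1 : j (1, s) = ⟨τ (hh s), hτ s⟩ := by
      apply Subtype.ext
      change (1 : Y) * τ (hh s) = _
      rw [one_mul]
    have e2 : β (1, s) = μ s := by
      change l 1 * μ s = _
      rw [map_one, one_mul]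
    rw [e1, e2] at h1
    rw [h1]
    intro h2
    apply hμs
    rw [← Units.val_pow_eq_pow_val, h2, Units.val_one]

/-- **The character of the cover.** -/
theorem exists_chi [Finite W] [Finite Y] (hG : GG cs (isCartan 3) T X = ⊤) {E : Type*} [Field E] [Finite E]
    {σ : SL(2, E) →* Y} (N : Nd T X (0 : Fin 3) σ) (hE : 3 < Nat.card E) (hT : ∀ s ∈ T, ∀ t ∈ T, s * t = t * s)
    (hcm : ∀ x ∈ X beta, ∀ y ∈ X (sr 0), x * y = y * x) {Z : Subgroup Y} (hZc : Z ≤ Subgroup.center Y) (hZT : Z ≤ T)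
    (hZM : ∀ z ∈ Z, z ∈ MJ cs (isCartan 3) X {0} → z = 1) (l : Z →* ℂˣ) :
    ∃ χ : Y → ℂ, IsIrrCharacter Y χ ∧ (∃ m : ℕ, χ 1 = (PJ cs (isCartan 3) T X ({0} ∪ {2})).index * m) ∧
      ∀ z (hz : z ∈ Z), χ z = χ 1 * (l ⟨z, hz⟩ : ℂˣ) := by
  classical
  have : Fintype Y := Fintype.ofFinite Y
  obtain ⟨τ, g₁, hτ, hU, hL, hTo, hw⟩ := exists_tau R N
  have hσ := sigma_inj R N
  have hinj : ∀ s : Eˣ, τ (hh s) ∈ Z → s = 1 := by
    intro s hs
    have h1 := Subgroup.mem_center_iff.1 (hZc hs) g₁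
    have h2 : τ (hh s) = σ (hh s) := by
      rw [hτ] at h1 ⊢
      have h3 : g₁ * (g₁ * σ (hh s) * g₁⁻¹) = g₁ * σ (hh s) := by rw [h1]; group
      exact mul_left_cancel h3
    rw [h2] at hs
    have h3 := hZM _ hs (by
      rw [MJ_single, ← N.range_eq R]
      exact ⟨_, rfl⟩)
    have h4 : hh s = 1 := hσ (by rw [h3, map_one])
    have h5 : (hh s).1 0 0 = (1 : SL(2, E)).1 0 0 := by rw [h4]
    rw [hh00] at h5
    exact Units.ext h5
  obtain ⟨κ, s, hκZ, hκs⟩ := exists_kappa hZT hT l hTo hinj hE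
  set J : Set (Fin 3) := {0} ∪ {2} with hJ
  let A₀ : Subgroup Y := T ⊓ Subgroup.centralizer (LJ cs (isCartan 3) T X J : Set Y)
  have hAc : ∀ z ∈ A₀, ∀ g ∈ LJ cs (isCartan 3) T X J, z * g = g * z := fun z hz g hg =>
    (Subgroup.mem_centralizer_iff.1 hz.2 g hg).symm
  have hM := MJ_le_LJ (cs := cs) (h := isCartan 3) (T := T) (X := X) J
  have hAZ : ∀ z ∈ MJ cs (isCartan 3) X {0}, (∀ y ∈ MJ cs (isCartan 3) X ({0} : Set (Fin 3)), z * y = y * z) →
      z ∈ A₀ := by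
    intro z hz hc
    have hzT := cen_le R N hz hc
    refine Subgroup.mem_inf.2 ⟨hzT, ?_⟩
    have h1 : LJ cs (isCartan 3) T X J ≤ Subgroup.centralizer {z} := by
      rw [LJ_eq, hJ, orth02.MJ_union]
      refine sup_le (fun t ht => ?_) (sup_le (fun y hy => ?_) (fun y hy => ?_))
      · rw [Subgroup.mem_centralizer_singleton_iff]
        exact hT _ ht _ hzT
      · rw [Subgroup.mem_centralizer_singleton_iff]
        exact (hc y hy).symm
      · rw [Subgroup.mem_centralizer_singleton_iff]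
        exact (orth02.comm R z hz y hy).symm
    rw [Subgroup.mem_centralizer_iff]
    intro y hy
    exact Subgroup.mem_centralizer_singleton_iff.1 (h1 hy)
  obtain ⟨ψ, hψ, hψz, hψv⟩ := Two.exists_psi R orth02 (inf_le_left : A₀ ≤ T) hAc hAZ
    (κ.comp (Subgroup.inclusion inf_le_left))
  have hψZ : ∀ z (hz : z ∈ Z), ψ ⟨z, T_le_LJ (hZT hz)⟩ = ψ 1 * (l ⟨z, hz⟩ : ℂˣ) := by
    intro z hz
    have hzA : z ∈ A₀ := by
      refine Subgroup.mem_inf.2 ⟨hZT hz, ?_⟩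
      rw [Subgroup.mem_centralizer_iff]
      exact fun y _ => Subgroup.mem_center_iff.1 (hZc hz) y
    have h1 := hψz z hzA
    have h2 : (κ.comp (Subgroup.inclusion inf_le_left)) ⟨z, hzA⟩ = l ⟨z, hz⟩ := hκZ z hz
    rw [h2] at h1
    exact h1
  have hcA : τ (hh s) ∈ A₀ := by
    refine Subgroup.mem_inf.2 ⟨hTo s, ?_⟩
    rw [Subgroup.mem_centralizer_iff]
    exact fun y hy => (tau_comm R hU hL hTo hT hcm s y hy).symm
  have hψc := hψz _ hcA
  have hψc' := hψz _ (inv_mem hcA)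
  obtain ⟨χ, hχ, hχ1, hχZ⟩ := Cfsg.Agent.H491.RIM.exists_irr_LJ R hG J hZc hZT l hψ hψZ hψv (by
    intro w g hg hwJ hp he
    have hws : w = sb cs := eq_sb cs (J := J) mem_J hp hwJ
    subst hws
    have ht := hw.unique hg
    have hconj : g * τ (hh s) * g⁻¹ = (τ (hh s))⁻¹ := by
      have h1 := hT _ ht _ (hTo s)
      have h2 : g * τ (hh s) * g⁻¹ = τ ww * (((τ ww)⁻¹ * g) * τ (hh s)) * g⁻¹ := by group
      rw [h2, h1]
      have h3 : τ ww * (τ (hh s) * ((τ ww)⁻¹ * g)) * g⁻¹ = τ (ww * hh s * ww⁻¹) := by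
        rw [map_mul, map_mul, map_inv]
        group
      rw [h3, wh, ← hh_inv, map_inv]
    have h4 := congrFun he ⟨τ (hh s), T_le_LJ (hTo s)⟩
    rw [Function.comp_apply] at h4
    have h5 : conjME (LJ cs (isCartan 3) T X J) (Cfsg.Agent.H491.RIM.rp_mem_normalizer_LJ R hg hp)
        ⟨τ (hh s), T_le_LJ (hTo s)⟩ = ⟨(τ (hh s))⁻¹, T_le_LJ (inv_mem (hTo s))⟩ := by
      apply Subtype.ext
      rw [conjME_coe]
      exact hconj
    rw [h5] at h4
    have h6 : ψ 1 ≠ 0 := Core.isIrr_apply_one_ne_zero hψ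
    have h7 : ψ 1 * ((κ.comp (Subgroup.inclusion (inf_le_left : A₀ ≤ T))) ⟨(τ (hh s))⁻¹, inv_mem hcA⟩ : ℂˣ) =
        ψ 1 * ((κ.comp (Subgroup.inclusion (inf_le_left : A₀ ≤ T))) ⟨τ (hh s), hcA⟩ : ℂˣ) :=
      hψc'.symm.trans (h4.trans hψc)
    have h8 : κ ⟨(τ (hh s))⁻¹, inv_mem (hTo s)⟩ = κ ⟨τ (hh s), hTo s⟩ := Units.ext (mul_left_cancel₀ h6 h7)
    have h9 : κ ⟨(τ (hh s))⁻¹, inv_mem (hTo s)⟩ = (κ ⟨τ (hh s), hTo s⟩)⁻¹ := map_inv κ ⟨τ (hh s), hTo s⟩
    rw [h9] at h8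
    apply hκs
    rw [pow_two]
    nth_rw 1 [← h8]
    exact inv_mul_cancel _)
  refine ⟨χ, hχ, ⟨charDegree ψ, ?_⟩, hχZ⟩
  rw [hχ1, H643.RIM.charDegree_cast hψ]

end three

section final

open Cfsg.Agent.H665.RIM (NB)
open Cfsg.Agent.Nodes.RGDLift Cfsg.Agent.Nodes

universe u

/-- the root groups generate -/
theorem G1_of_GG {I W S : Type*} [Fintype I] [DecidableEq I] [Group W] [Group S] {M : CoxeterMatrix I}
    {cs : CoxeterSystem M W} {A : I → I → ℤ} {h : IsCartan M A} {r : ℕ} {T : Subgroup S} {n : I → S}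
    {X : (I → ℤ) → Subgroup S} (R : RGD cs h r T n X) (hG : GG cs h T X = ⊤)
    (hT : ∀ s ∈ T, ∀ t ∈ T, s * t = t * s) (hS : commutator S = ⊤) : RGDLib.G1 cs h X = ⊤ := by
  have hle : ∀ x, IsRoot cs h x → X x ≤ RGDLib.G1 cs h X := fun x hx => RGD.le_Sup (S := {x | IsRoot cs h x}) hx
  have hconj : ∀ g : S, ∀ y ∈ RGDLib.G1 cs h X, g * y * g⁻¹ ∈ RGDLib.G1 cs h X := by
    have h1 : GG cs h T X ≤ Subgroup.normalizer (RGDLib.G1 cs h X : Set S) := by
      unfold GG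
      refine sup_le (fun t ht => ?_) Subgroup.le_normalizer
      have key : ∀ t ∈ T, ∀ y ∈ RGDLib.G1 cs h X, t * y * t⁻¹ ∈ RGDLib.G1 cs h X := by
        intro t ht
        have h2 : RGDLib.G1 cs h X ≤ (RGDLib.G1 cs h X).comap (MulAut.conj t).toMonoidHom := by
          refine RGD.Sup_le fun x hx y hy => ?_
          refine hle x hx ?_
          change t * y * t⁻¹ ∈ X x
          rw [← R.tor x hx t ht]
          exact conj_mem_cj.2 hy
        exact h2
      rw [Subgroup.mem_normalizer_iff]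
      intro y
      refine ⟨key t ht y, fun hy => ?_⟩
      have h3 := key t⁻¹ (inv_mem ht) _ hy
      have e : t⁻¹ * (t * y * t⁻¹) * t⁻¹⁻¹ = y := by group
      rwa [e] at h3
    intro g y hy
    exact (Subgroup.mem_normalizer_iff.1 (h1 (hG ▸ Subgroup.mem_top g)) y).1 hy
  have hn : (RGDLib.G1 cs h X).Normal := ⟨fun y hy g => hconj g y hy⟩
  rw [eq_top_iff, ← hS]
  rw [commutator_def, Subgroup.commutator_le]
  have hdec : ∀ g : S, ∃ t ∈ T, ∃ y ∈ RGDLib.G1 cs h X, g = t * y := by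
    intro g
    have h1 : g ∈ T ⊔ RGDLib.G1 cs h X := by
      have h2 : GG cs h T X = T ⊔ RGDLib.G1 cs h X := rfl
      rw [← h2, hG]
      exact Subgroup.mem_top g
    obtain ⟨t, ht, y, hy, e⟩ := Subgroup.mem_sup_of_normal_right.1 h1
    exact ⟨t, ht, y, hy, e.symm⟩
  intro a _ b _
  obtain ⟨s, hs, y, hy, rfl⟩ := hdec a
  obtain ⟨t, ht, z, hz, rfl⟩ := hdec b
  rw [← QuotientGroup.eq_one_iff]
  have e1 : ((s * y : S) : S ⧸ RGDLib.G1 cs h X) = s := by
    rw [QuotientGroup.eq]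
    have : (s * y)⁻¹ * s = y⁻¹ := by group
    rw [this]
    exact inv_mem hy
  have e2 : ((t * z : S) : S ⧸ RGDLib.G1 cs h X) = t := by
    rw [QuotientGroup.eq]
    have : (t * z)⁻¹ * t = z⁻¹ := by group
    rw [this]
    exact inv_mem hz
  have e3 : ((⁅s * y, t * z⁆ : S) : S ⧸ RGDLib.G1 cs h X) = ⁅(s : S ⧸ RGDLib.G1 cs h X), (t : S ⧸ RGDLib.G1 cs h X)⁆ := by
    rw [← e1, ← e2]
    rfl
  rw [e3, commutatorElement_eq_one_iff_mul_comm, ← QuotientGroup.mk_mul, ← QuotientGroup.mk_mul, hT s hs t ht]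

/-- **`B_3`, `p ∣ q ^ 2 + q + 1`, `q > 3`.** -/
theorem nb_three {W : Type*} {S : Type u} [Group W] [Group S] [Finite W] [Finite S] {r : ℕ} [Fact r.Prime]
    {cs : CoxeterSystem (CoxeterMatrix.B 3) W} {T : Subgroup S} {n : Fin 3 → S} {X : (Fin 3 → ℤ) → Subgroup S}
    (R : RGD cs (isCartan 3) r T n X) (hG : GG cs (isCartan 3) T X = ⊤) {q z : ℕ}
    (hy : ∀ i : Fin 3, (i : ℕ) + 1 < 3 → Nat.card (X (sr i)) = q)
    (hz : ∀ i : Fin 3, (i : ℕ) + 1 = 3 → Nat.card (X (sr i)) = z) (hq : 3 < q)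
    (hT : ∀ s ∈ T, ∀ t ∈ T, s * t = t * s)
    (hN : ∀ i, ∃ (E : Type) (_ : Field E) (_ : Finite E) (_ : CharP E r) (σ : SL(2, E) →* S), Nd T X i σ)
    (hcm : ∀ x ∈ X ![1, 2, 1], ∀ y ∈ X (sr 0), x * y = y * x) {p : ℕ} (hp : p.Prime) (h1 : p ∣ q ^ 3 - 1)
    (h2 : ∀ i, 1 ≤ i → i < 3 → ¬ p ∣ q ^ i - 1) (hr : r ≠ 2) : NB p 2 S := by
  intro E _ _ π hs hc hcomm hcard l hl
  have hrp : r.Prime := Fact.out
  have hk : (Nat.card π.ker).Coprime r := by
    rw [hcard]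
    exact (Nat.coprime_primes Nat.prime_two hrp).2 (Ne.symm hr)
  have hS : commutator S = ⊤ := by
    have h3 := congrArg (Subgroup.map π) hcomm
    rw [Subgroup.map_top_of_surjective π hs, commutator_def, Subgroup.map_commutator,
      Subgroup.map_top_of_surjective π hs] at h3
    exact h3
  have hG1 := G1_of_GG R hG hT hS
  obtain ⟨n', hn', R₁, hG₁⟩ := Cfsg.Agent.H905.DC.exists_rgd_lift hcomm hc hk hs R hG1
  have hG' := H908.RIM.GG_lift hc hk hs R hG
  have hN' : ∀ i, ∃ (K : Type) (_ : Field K) (_ : Finite K) (_ : CharP K r) (σ : SL(2, K) →* E),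
      Nd (T.comap π) (fun x => lft r π (X x)) i σ := by
    intro i
    obtain ⟨K, i1, i2, i3, σ', N⟩ := hN i
    obtain ⟨σ, -, N'⟩ := N.exists_lift hc hk hs R
    exact ⟨K, i1, i2, i3, σ, N'⟩
  have hT' := lift_comm hc hk hT R₁ hG₁ R hN'
  obtain ⟨K, i1, i2, i3, σ, N⟩ := hN' 0
  have hKq : Nat.card K = q := by
    have e : (lft r π (X (sr 0)) : Set E) = Set.range fun t => σ (U t) := by
      ext y
      exact N.up y
    have h6 : Nat.card (lft r π (X (sr 0))) = Nat.card (Set.range fun t => σ (U t)) := by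
      rw [← e]
      rfl
    rw [Nat.card_range_of_injective (fun a b hab => N.U_inj R₁ hab),
      H908.RIM.card_lift hc hk hs (R.pgrp' (isRoot_sr cs _ 0)), hy 0 (by norm_num)] at h6
    exact h6.symm
  have hcm' : ∀ x ∈ lft r π (X beta), ∀ y ∈ lft r π (X (sr 0)), x * y = y * x := by
    intro x hx y hy'
    have hPb := R.pgrp' (isRoot_beta cs)
    have hP0 := R.pgrp' (isRoot_sr cs (isCartan 3) 0)
    have hx' := (mem_lft hc hPb).1 hx
    obtain ⟨hy1, k, hk1⟩ := (mem_lft hc hP0).1 hy'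
    have h3 := hcm _ hx'.1 _ hy1
    have h4 : x * y * x⁻¹ * y⁻¹ ∈ π.ker := by
      rw [MonoidHom.mem_ker, map_mul, map_mul, map_mul, map_inv, map_inv, h3]
      group
    set w := x * y * x⁻¹ * y⁻¹ with hw
    have h5 : x * y * x⁻¹ = w * y := by rw [hw]; group
    have h6 : w ^ r ^ k = 1 := by
      have h7 : (x * y * x⁻¹) ^ r ^ k = 1 := by rw [conj_pow, hk1, mul_one, mul_inv_cancel]
      have h8 : Commute w y := (Subgroup.mem_center_iff.1 (hc h4) y).symm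
      rw [h5, h8.mul_pow, hk1, mul_one] at h7
      exact h7
    have h7 : w ^ Nat.card π.ker = 1 := by
      have h8 : (⟨w, h4⟩ : π.ker) ^ Nat.card π.ker = 1 := pow_card_eq_one'
      exact congrArg Subtype.val h8
    have h8 : w = 1 := by
      have h9 : orderOf w ∣ 1 := by
        rw [← (hk.pow_right k)]
        exact Nat.dvd_gcd (orderOf_dvd_of_pow_eq_one h7) (orderOf_dvd_of_pow_eq_one h6)
      exact orderOf_eq_one_iff.1 (Nat.dvd_one.1 h9)
    rw [h8, one_mul] at h5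
    exact mul_inv_eq_iff_eq_mul.1 h5
  have hZM : ∀ z ∈ π.ker, z ∈ MJ cs (isCartan 3) (fun x => lft r π (X x)) {0} → z = 1 := by
    intro z hz hm
    have h3 := H908.RIM.cenExp_chain R₁ (m := 2) le_rfl k2 k2_M (q := q) 0
      ((H908.RIM.card_lift hc hk hs (R.pgrp' (isRoot_sr cs _ 0))).trans (hy 0 (by norm_num)))
    refine H908.RIM.eq_one_of_cenExp h3 hc ?_ z hz ?_
    · rw [hcard]
      exact Nat.Coprime.coprime_dvd_right (Nat.gcd_dvd_left (2 + 1) (q - 1)) (by norm_num)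
    · have h4 : RootsJ cs (isCartan 3) ({0} : Set (Fin 3)) ⊆ RootsJ cs (isCartan 3) (Set.range k2) :=
        fun x hx => ⟨hx.1, fun j hj => hx.2 j fun h0 => hj ⟨0, (Set.mem_singleton_iff.1 h0).symm⟩⟩
      exact RGD.Sup_mono h4 hm
  obtain ⟨χ, hχ, ⟨m, hm⟩, hχZ⟩ := exists_chi R₁ hG' N (by rw [hKq]; exact hq) hT' hcm' hc H908.RIM.ker_le_T hZM l
  refine ⟨χ, hχ, fun z => hχZ z z.2, ?_⟩
  have h3 : charDegree χ = (PJ cs (isCartan 3) T X ({0} ∪ {2})).index * m := by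
    have h4 : ((charDegree χ : ℕ) : ℂ) = (((PJ cs (isCartan 3) T X ({0} ∪ {2})).index * m : ℕ) : ℂ) := by
      rw [H643.RIM.charDegree_cast hχ, hm, Nat.cast_mul, H908.RIM.PJ_index_lift hc hk hs R]
    exact_mod_cast h4
  rw [h3]
  exact Dvd.dvd.mul_right (dvd_index_exc R hG (by omega) hy hz hp h1 h2 (j := 1) (by norm_num)
    fun h5 => (mem_J 1).1 h5 rfl) m

end final

end Cfsg.Agent.H521.RIM.Three
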