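import Cfsg.Agent.H643.RIM.WRev
import Cfsg.Agent.Nodes.TypeC
import Cfsg.Agent.H53.HC.Asm

/-!
# Type `B_3` (Cartan matrix `C_3`): the root `β = e_1 + e_2`, `J = {0, 2}` (S4816, helper521)

* `beta = ![1, 2, 1]`, `w1 = s_1 s_2 s_1`, `w1 α_0 = β`, `sb = w1 s_0 w1⁻¹`;
* `btwn_beta` : there is no root between `β` and `α_2`;
* `eq_sb` : `w ∉ W_J` with `w J = J` is `sb`.
-/

set_option autoImplicit false
set_option linter.unusedSectionVars false

namespace Cfsg.Agent.H521.RIM.Three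

open CoxeterSystem Cfsg.Agent.ChevalleyStructure.CoxeterGeom Cfsg.Agent.Tits.Roots Cfsg.Agent.Tits.Core
  Cfsg.Agent.Tits.Exchange Cfsg.Agent.Nodes.Reps Cfsg.Agent.Nodes.BNOf Cfsg.Agent.Nodes.StabComb
  Cfsg.Agent.Nodes.Bruhat Cfsg.Agent.Nodes.OppDec Cfsg.Agent.Nodes.LeviDec Cfsg.Agent.H53.HC
  Cfsg.Agent.Nodes.TypeC

variable {W : Type*} [Group W] {cs : CoxeterSystem (CoxeterMatrix.B 3) W}

/-- `e_1 + e_2` -/
def beta : Fin 3 → ℤ := ![1, 2, 1]

theorem sr_zero : (sr 0 : Fin 3 → ℤ) = ![1, 0, 0] := by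
  funext k; fin_cases k <;> simp [sr]

theorem sr_one : (sr 1 : Fin 3 → ℤ) = ![0, 1, 0] := by
  funext k; fin_cases k <;> simp [sr]

theorem sr_two : (sr 2 : Fin 3 → ℤ) = ![0, 0, 1] := by
  funext k; fin_cases k <;> simp [sr]

theorem A3 : A 3 = ![![2, -1, 0], ![-1, 2, -2], ![0, -1, 2]] := by
  funext i j
  rw [A_apply]
  fin_cases i <;> fin_cases j <;> rfl

theorem rep0 (a b c : ℤ) : rep cs (isCartan 3) (cs.simple 0) ![a, b, c] = ![b - a, b, c] := by
  rw [rep_simple, refl_apply]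
  funext k
  fin_cases k <;> simp [pairing, Fin.sum_univ_three, A3]
  ring

theorem rep1 (a b c : ℤ) : rep cs (isCartan 3) (cs.simple 1) ![a, b, c] = ![a, a - b + 2 * c, c] := by
  rw [rep_simple, refl_apply]
  funext k
  fin_cases k <;> simp [pairing, Fin.sum_univ_three, A3]
  ring

theorem rep2 (a b c : ℤ) : rep cs (isCartan 3) (cs.simple 2) ![a, b, c] = ![a, b, b - c] := by
  rw [rep_simple, refl_apply]
  funext k
  fin_cases k <;> simp [pairing, Fin.sum_univ_three, A3]
  ring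

variable (cs)

/-- `s_1 s_2 s_1` -/
def w1 : W := cs.simple 1 * (cs.simple 2 * cs.simple 1)

theorem w1_inv : (w1 cs)⁻¹ = w1 cs := by
  unfold w1
  rw [mul_inv_rev, mul_inv_rev, cs.inv_simple, cs.inv_simple]
  simp only [mul_assoc]

/-- the reflection in `β` -/
def sb : W := w1 cs * cs.simple 0 * (w1 cs)⁻¹

theorem rep_w1 (a b c : ℤ) : rep cs (isCartan 3) (w1 cs) ![a, b, c] = ![a, 2 * a - b, a - b + c] := by
  unfold w1
  rw [rep_mul_apply, rep_mul_apply, rep1, rep2, rep1]
  funext k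
  fin_cases k <;> simp <;> ring

theorem rep_w1_sr0 : rep cs (isCartan 3) (w1 cs) (sr 0) = beta := by
  rw [sr_zero, rep_w1]
  rfl

theorem rep_sb (a b c : ℤ) : rep cs (isCartan 3) (sb cs) ![a, b, c] = ![a - b, -b, c - b] := by
  unfold sb
  rw [w1_inv, rep_mul_apply, rep_mul_apply, rep_w1, rep0, rep_w1]
  funext k
  fin_cases k <;> simp <;> ring

theorem rep_sb_beta : rep cs (isCartan 3) (sb cs) beta = -beta := by
  unfold beta
  rw [rep_sb]
  funext k
  fin_cases k <;> simp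

theorem rep_sb_sr0 : rep cs (isCartan 3) (sb cs) (sr 0) = sr 0 := by
  rw [sr_zero, rep_sb]
  funext k
  fin_cases k <;> simp

theorem rep_sb_sr2 : rep cs (isCartan 3) (sb cs) (sr 2) = sr 2 := by
  rw [sr_two, rep_sb]
  funext k
  fin_cases k <;> simp

theorem rep_s0_beta : rep cs (isCartan 3) (cs.simple 0) beta = beta := by
  unfold beta
  rw [rep0]
  funext k
  fin_cases k <;> simp

theorem rep_s2_beta : rep cs (isCartan 3) (cs.simple 2) beta = beta := by
  unfold beta
  rw [rep2]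
  funext k
  fin_cases k <;> simp

theorem isRoot_beta : IsRoot cs (isCartan 3) beta := by
  rw [← rep_w1_sr0 cs]
  exact (isRoot_sr cs _ 0).act _

/-- no root between `β` and `α_2` -/
theorem btwn_beta (z : Fin 3 → ℤ) : ¬ Btwn cs (isCartan 3) beta (sr 2) z := by
  rintro ⟨hz, m, a, b, hm, ha, hb, e⟩
  obtain ⟨x, y, -, hz⟩ := (isRoot_iff (cs := cs)).1 hz
  have e0 := congrFun e 0
  have e1 := congrFun e 1
  have e2 := congrFun e 2
  rw [sr_two] at e0 e1 e2
  simp [beta] at e0 e1 e2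
  have h0 := congrFun hz 0
  have h1 := congrFun hz 1
  have h2 := congrFun hz 2
  simp only [ee, Fin.sum_univ_three, Pi.add_apply, Pi.smul_apply, smul_eq_mul, bt_apply, wt_apply] at h0 h1 h2
  have g0 : 0 < z 0 := by
    by_contra hcon
    have := mul_nonneg hm.le (neg_nonneg.2 (not_lt.1 hcon))
    linarith
  have g1 : z 1 = 2 * z 0 := by
    have h3 : m * z 1 = m * (2 * z 0) := by rw [e1, ← e0]; ring
    exact mul_left_cancel₀ hm.ne' h3
  have g2 : z 0 < z 2 := by
    have h3 : m * z 0 < m * z 2 := by rw [e0, e2]; linarith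
    exact lt_of_mul_lt_mul_left h3 hm.le
  obtain ⟨i, s⟩ := x
  obtain ⟨j, t⟩ := y
  fin_cases i <;> fin_cases j <;> cases s <;> cases t <;> simp at h0 h1 h2 <;> omega

/-- **The Weyl group element.** -/
theorem eq_sb [Finite W] {J : Set (Fin 3)} (hJ : ∀ i, i ∈ J ↔ i ≠ 1) {w : W} (hw : Perm cs (isCartan 3) J w)
    (hwJ : w ∉ WJ cs J) : w = sb cs := by
  have := Fintype.ofFinite W
  have hform : form cs (isCartan 3) (sr 2) (sr 2) ≠ form cs (isCartan 3) (sr 0) (sr 0) := by
    have h1 := two_form cs (isCartan 3) 0 (sr 1)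
    have h2 := two_form cs (isCartan 3) 1 (sr 0)
    have h3 := two_form cs (isCartan 3) 2 (sr 1)
    have h4 := two_form cs (isCartan 3) 1 (sr 2)
    rw [form_comm cs (isCartan 3) (sr 0) (sr 1)] at h2
    rw [form_comm cs (isCartan 3) (sr 2) (sr 1)] at h4
    have h5 := form_pos cs (isCartan 3) (sr_ne_zero (0 : Fin 3))
    simp only [sr, pairing_single, A3, mul_one] at h1 h2 h3 h4 h5 ⊢
    simp at h1 h2 h3 h4
    intro h6
    linarith
  have h0J : (0 : Fin 3) ∈ J := (hJ 0).2 (by decide)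
  have h2J : (2 : Fin 3) ∈ J := (hJ 2).2 (by decide)
  have hnot1 : (1 : Fin 3) ∉ J := fun h1 => (hJ 1).1 h1 rfl
  have hw0 : rep cs (isCartan 3) w (sr 0) = sr 0 := by
    obtain ⟨k, hk, e⟩ := hw.2 0 h0J
    fin_cases k
    · exact e
    · exact absurd hk hnot1
    · exfalso
      apply hform
      have h1 := form_rep cs (isCartan 3) w (sr 0) (sr 0)
      rw [e] at h1
      exact h1
  have hw2 : rep cs (isCartan 3) w (sr 2) = sr 2 := by
    obtain ⟨k, hk, e⟩ := hw.2 2 h2J
    fin_cases k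
    · exfalso
      apply hform
      have h1 := form_rep cs (isCartan 3) w (sr 2) (sr 2)
      rw [e] at h1
      exact h1.symm
    · exact absurd hk hnot1
    · exact e
  have h1 := apply_eq_neg hJ hw hwJ (sr 1)
  have h2 := pairing_rep hw0 (sr 1)
  have h3 := pairing_rep hw2 (sr 1)
  rw [sr_self] at h1
  have q0 : pairing (A 3) 0 (sr 1) = -1 := by
    rw [sr, pairing_single, A3]
    rfl
  have q2 : pairing (A 3) 2 (sr 1) = -1 := by
    rw [sr, pairing_single, A3]
    rfl
  rw [q0] at h2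
  rw [q2] at h3
  have p0 : ∀ v : Fin 3 → ℤ, pairing (A 3) 0 v = 2 * v 0 - v 1 := by
    intro v
    simp [pairing, Fin.sum_univ_three, A3]
    ring
  have p2 : ∀ v : Fin 3 → ℤ, pairing (A 3) 2 v = 2 * v 2 - v 1 := by
    intro v
    simp [pairing, Fin.sum_univ_three, A3]
    ring
  rw [p0, h1] at h2
  rw [p2, h1] at h3
  have hv : rep cs (isCartan 3) w (sr 1) = ![-1, -1, -1] := by
    funext k
    fin_cases k
    · change rep cs (isCartan 3) w (sr 1) 0 = -1
      linarith
    · exact h1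
    · change rep cs (isCartan 3) w (sr 1) 2 = -1
      linarith
  have key : w⁻¹ * sb cs = 1 := by
    refine eq_one_of_nonneg (cs := cs) (h := isCartan 3) fun i => ?_
    have e1 : rep cs (isCartan 3) (sb cs) (sr i) = rep cs (isCartan 3) w (sr i) := by
      fin_cases i
      · exact (rep_sb_sr0 cs).trans hw0.symm
      · refine Eq.trans ?_ hv.symm
        change rep cs (isCartan 3) (sb cs) (sr 1) = _
        rw [sr_one, rep_sb]
        funext k
        fin_cases k <;> simp
      · exact (rep_sb_sr2 cs).trans hw2.symm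
    rw [rep_mul_apply, e1, rep_inv_apply]
    exact sr_nonneg i
  exact (inv_mul_eq_one.1 key)

end Cfsg.Agent.H521.RIM.Three
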